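import Cfsg.Agent.H981.Inv.HNCodes
import Cfsg.Agent.H687.EqD.EvFa

/-!
# Words of order 19, part 4 (helper315, for S4173, row `HN`)
-/

set_option autoImplicit false
set_option maxRecDepth 100000

namespace Cfsg.Agent.H315.TcHN.Wd

open Cfsg.Agent.HN Cfsg.Agent.H981.InvHN Cfsg.Agent.Lib.PackMatMul Cfsg.Agent.HN.RepData
open Cfsg.Agent.H839.Rad.HN (evF W A B C₁ D F)

/-- the program -/
def pr : List (ℕ × List ℕ) := [
  (6, [7]),
  (10, [7, 9, 14, 11, 10, 8]),
  (8, [0, 9, 3, 3]),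
  (0, [0]),
  (0, [0]),
  (0, [0]),
  (0, [0]),
  (0, [3, 4]),
  (16, [6, 17, 11, 11]),
  (0, [0]),
  (0, [0]),
  (0, [0]),
  (0, [0]),
  (0, [3, 4]),
  (12, [16, 17, 17, 17, 18]),
  (0, [0]),
  (0, [0]),
  (0, [0]),
  (0, [0]),
  (0, [3, 4])]

/-- the equalities -/
def es : List (ℕ × ℕ) := [(12, 19), (6, 19), (0, 19)]

/-- the inequalities -/
def ns : List (ℕ × ℕ) := []

theorem chk : checkS C pr es ns L2 = true := by decide +kernel

theorem snd : (∀ q ∈ es, S pr q.1 = S pr q.2) ∧ (∀ q ∈ ns, S pr q.1 ≠ S pr q.2) := soundS chk (by decide)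

theorem g (m : ℕ) : S pr (20 + m) = gens2.getD m 1 := genS pr m

theorem gW : S pr 20 = W := g 0
theorem gA : S pr 21 = A := g 1
theorem gB : S pr 22 = B := g 2
theorem gC : S pr 23 = C₁ := g 3
theorem gD : S pr 24 = D := g 4
theorem gF : S pr 25 = F := g 5
theorem gx : S pr 26 = Rep.x := g 6
theorem gxi : S pr 27 = Rep.x⁻¹ := g 7
theorem gy : S pr 28 = Rep.y := g 8
theorem gyi : S pr 29 = Rep.y⁻¹ := g 9
theorem gz : S pr 30 = Rep.z := g 10
theorem gzi : S pr 31 = Rep.z⁻¹ := g 11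
theorem gt : S pr 32 = Rep.t := g 12
theorem gti : S pr 33 = Rep.t⁻¹ := g 13

theorem one_def : S pr 19 = Rep.x * Rep.x⁻¹ := by
  have h := stepS (p := pr) (i := 19) (w := [6, 7]) (by decide) (by rfl)
  simp only [evF, mul_one] at h
  rw [h]
  show S pr 26 * (S pr 27) = _
  rw [gx, gxi]
theorem one_eq : S pr 19 = 1 := by rw [one_def, mul_inv_cancel]

/-- the element of order `11` -/
noncomputable def u : Cfsg.Spor.HN := Rep.y⁻¹ * (Rep.x * (Rep.y * (Rep.t⁻¹ * (Rep.z * (Rep.y⁻¹ * (Rep.x⁻¹))))))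

theorem u_eq : S pr 18 = u := by
  have h := stepS (p := pr) (i := 18) (w := [10, 7, 9, 14, 11, 10, 8]) (by decide) (by rfl)
  simp only [evF, mul_one] at h
  rw [h]
  show S pr 29 * (S pr 26 * (S pr 28 * (S pr 33 * (S pr 30 * (S pr 29 * (S pr 27)))))) = _
  rw [gyi, gx, gy, gti, gz, gxi, u]
theorem v_AA : S pr 17 = Rep.x * (u * (Rep.x⁻¹ * (A * (A)))) := by
  have h := stepS (p := pr) (i := 17) (w := [8, 0, 9, 3, 3]) (by decide) (by rfl)
  simp only [evF, mul_one] at h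
  rw [h]
  show S pr 26 * (S pr 18 * (S pr 27 * (S pr 21 * (S pr 21)))) = _
  rw [gx, u_eq, gxi, gA]
theorem s2_AA : S pr 16 = S pr 17 * S pr 17 := by
  have h := stepS (p := pr) (i := 16) (w := [0, 0]) (by decide) (by rfl)
  simp only [evF, mul_one] at h
  rw [h]
theorem s4_AA : S pr 15 = S pr 16 * S pr 16 := by
  have h := stepS (p := pr) (i := 15) (w := [0, 0]) (by decide) (by rfl)
  simp only [evF, mul_one] at h
  rw [h]
theorem s8_AA : S pr 14 = S pr 15 * S pr 15 := by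
  have h := stepS (p := pr) (i := 14) (w := [0, 0]) (by decide) (by rfl)
  simp only [evF, mul_one] at h
  rw [h]
theorem s16_AA : S pr 13 = S pr 14 * S pr 14 := by
  have h := stepS (p := pr) (i := 13) (w := [0, 0]) (by decide) (by rfl)
  simp only [evF, mul_one] at h
  rw [h]
theorem r_AA : (Rep.x * (u * (Rep.x⁻¹ * (A * (A))))) ^ 19 = 1 := by
  have h := stepS (p := pr) (i := 12) (w := [0, 3, 4]) (by decide) (by rfl)
  simp only [evF, mul_one] at h
  have h1 : S pr 12 = S pr 13 * (S pr 16 * S pr 17) := h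
  have h2 : S pr 12 = S pr 19 := snd.1 (12, 19) (by decide)
  rw [h1, one_eq, s16_AA, s8_AA, s4_AA, s2_AA, v_AA] at h2
  simpa only [pow_succ, pow_zero, one_mul, mul_assoc] using h2

theorem v_CC : S pr 11 = Rep.y * (u * (Rep.y⁻¹ * (C₁ * (C₁)))) := by
  have h := stepS (p := pr) (i := 11) (w := [16, 6, 17, 11, 11]) (by decide) (by rfl)
  simp only [evF, mul_one] at h
  rw [h]
  show S pr 28 * (S pr 18 * (S pr 29 * (S pr 23 * (S pr 23)))) = _
  rw [gy, u_eq, gyi, gC]
theorem s2_CC : S pr 10 = S pr 11 * S pr 11 := by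
  have h := stepS (p := pr) (i := 10) (w := [0, 0]) (by decide) (by rfl)
  simp only [evF, mul_one] at h
  rw [h]
theorem s4_CC : S pr 9 = S pr 10 * S pr 10 := by
  have h := stepS (p := pr) (i := 9) (w := [0, 0]) (by decide) (by rfl)
  simp only [evF, mul_one] at h
  rw [h]
theorem s8_CC : S pr 8 = S pr 9 * S pr 9 := by
  have h := stepS (p := pr) (i := 8) (w := [0, 0]) (by decide) (by rfl)
  simp only [evF, mul_one] at h
  rw [h]
theorem s16_CC : S pr 7 = S pr 8 * S pr 8 := by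
  have h := stepS (p := pr) (i := 7) (w := [0, 0]) (by decide) (by rfl)
  simp only [evF, mul_one] at h
  rw [h]
theorem r_CC : (Rep.y * (u * (Rep.y⁻¹ * (C₁ * (C₁))))) ^ 19 = 1 := by
  have h := stepS (p := pr) (i := 6) (w := [0, 3, 4]) (by decide) (by rfl)
  simp only [evF, mul_one] at h
  have h1 : S pr 6 = S pr 7 * (S pr 10 * S pr 11) := h
  have h2 : S pr 6 = S pr 19 := snd.1 (6, 19) (by decide)
  rw [h1, one_eq, s16_CC, s8_CC, s4_CC, s2_CC, v_CC] at h2
  simpa only [pow_succ, pow_zero, one_mul, mul_assoc] using h2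

theorem v_BCCCD : S pr 5 = u * (B * (C₁ * (C₁ * (C₁ * (D))))) := by
  have h := stepS (p := pr) (i := 5) (w := [12, 16, 17, 17, 17, 18]) (by decide) (by rfl)
  simp only [evF, mul_one] at h
  rw [h]
  show S pr 18 * (S pr 22 * (S pr 23 * (S pr 23 * (S pr 23 * (S pr 24))))) = _
  rw [u_eq, gB, gC, gD]
theorem s2_BCCCD : S pr 4 = S pr 5 * S pr 5 := by
  have h := stepS (p := pr) (i := 4) (w := [0, 0]) (by decide) (by rfl)
  simp only [evF, mul_one] at h
  rw [h]
theorem s4_BCCCD : S pr 3 = S pr 4 * S pr 4 := by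
  have h := stepS (p := pr) (i := 3) (w := [0, 0]) (by decide) (by rfl)
  simp only [evF, mul_one] at h
  rw [h]
theorem s8_BCCCD : S pr 2 = S pr 3 * S pr 3 := by
  have h := stepS (p := pr) (i := 2) (w := [0, 0]) (by decide) (by rfl)
  simp only [evF, mul_one] at h
  rw [h]
theorem s16_BCCCD : S pr 1 = S pr 2 * S pr 2 := by
  have h := stepS (p := pr) (i := 1) (w := [0, 0]) (by decide) (by rfl)
  simp only [evF, mul_one] at h
  rw [h]
theorem r_BCCCD : (u * (B * (C₁ * (C₁ * (C₁ * (D)))))) ^ 19 = 1 := by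
  have h := stepS (p := pr) (i := 0) (w := [0, 3, 4]) (by decide) (by rfl)
  simp only [evF, mul_one] at h
  have h1 : S pr 0 = S pr 1 * (S pr 4 * S pr 5) := h
  have h2 : S pr 0 = S pr 19 := snd.1 (0, 19) (by decide)
  rw [h1, one_eq, s16_BCCCD, s8_BCCCD, s4_BCCCD, s2_BCCCD, v_BCCCD] at h2
  simpa only [pow_succ, pow_zero, one_mul, mul_assoc] using h2

end Cfsg.Agent.H315.TcHN.Wd
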